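import Cfsg.Agent.TwoF.SpE.SuzTab
import Cfsg.Agent.H212.SuzFive.ThreeNorm
import Cfsg.Agent.BpSpor.SuzThreeCentral
import Cfsg.Agent.BpSpor.Cen
import Cfsg.Agent.TwoF.Gen.BLay

/-!
# TwoF / SP: the elementary abelian 3-subgroups of `Suz` (helper95)
-/

set_option autoImplicit false
set_option maxHeartbeats 400000
set_option maxRecDepth 100000

namespace Cfsg.Agent.TwoF.SpE.Suz

open Cfsg Subgroup Cfsg.Agent.TwoF.Gen Cfsg.Agent.SuzThree Cfsg.Agent.SuzThree.Basic Cfsg.Agent.SuzThree.Elementary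
open Cfsg.Agent.SuzThree.NormElts Cfsg.Agent.SuzThree.NormAct
open Cfsg.Spor (Suz)
open Cfsg.Agent.SuzThree.Elts (x Ix)
open Cfsg.Agent.SporadicRecognition.SuzOrder (el)
open Cfsg.Agent.BpSpor.SuzThreeCentral (finSuz comm_of_three)

/-- the word of an element of order eleven -/
def yw : List Spor.Suz.Gen := nw .j1 ++ nw .j2 ++ nw .j3 ++ nw .j5

/-- the word of an element of order five -/
def vw : List Spor.Suz.Gen := yw ++ (nw .j4 ++ yw.reverse ++ (nw .j4).reverse)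

theorem y_mem : el yw ∈ NA := by
  rw [yw, el_append, el_append, el_append]
  exact mul_mem (mul_mem (mul_mem (nw_mem _) (nw_mem _)) (nw_mem _)) (nw_mem _)

theorem v_mem {H : Subgroup Suz} (hy : el yw ∈ H) (h : ∀ n ∈ NA, ∀ h ∈ H, n * h * n⁻¹ ∈ H) : el vw ∈ H := by
  rw [vw, el_append, el_append, el_append, el_reverse, el_reverse]
  exact mul_mem hy (h _ (nw_mem _) _ (inv_mem hy))

theorem ord_y : orderOf (el yw) = 11 :=
  haveI := Fact.mk (by norm_num : Nat.Prime 11)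
  orderOf_eq_prime ((el_pow 11 (by decide +kernel)).trans el_nil) (el_ne 0 166 (by decide +kernel))

theorem ord_v : orderOf (el vw) = 5 :=
  haveI := Fact.mk Nat.prime_five
  orderOf_eq_prime ((el_pow 5 (by decide +kernel)).trans el_nil) (el_ne 0 771 (by decide +kernel))

theorem card_pow {B : Subgroup Suz} (h : B ≤ A0) : ∃ j ≤ 5, Nat.card B = 3 ^ j :=
  (Nat.dvd_prime_pow Nat.prime_three).1 ((card_dvd_of_le h).trans card_A0.dvd)

theorem fix {n : Suz} (hn : n ∈ NA) {s : ℕ} [Fact s.Prime] (hs : orderOf n = s) (h3 : ¬ s ∣ 3) :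
    ∃ j < 5, Nat.card ↥(A0 ⊓ centralizer {n}) = 3 ^ j ∧ 243 ≡ 3 ^ j [MOD s] := by
  have := finSuz
  obtain ⟨j, hj, h1⟩ := card_pow (inf_le_left : A0 ⊓ centralizer {n} ≤ A0)
  refine ⟨j, hj.lt_of_ne ?_, h1, ?_⟩
  · rintro rfl
    have h2 : A0 ⊓ centralizer {n} = A0 := eq_of_le_of_card_ge inf_le_left (card_A0.trans h1.symm).le
    exact h3 (hs ▸ orderOf_dvd_of_pow_eq_one (cube_A0 (Kernel.mem_of_centralizes fun v =>
      (mem_centralizer_singleton_iff.1 (h2.ge (E_mem v)).2).symm)))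
  · rw [← card_A0, ← h1]
    exact BpSpor.Cen.card_fix hs fun a ha => (mem_normalizer_iff.1 hn a).1 ha

theorem irr {H : Subgroup Suz} (hy : el yw ∈ H) : IrrOn A0 H := fun B hB h => by
  have := finSuz
  obtain ⟨i, hi, h4⟩ := card_pow hB
  have k : ∀ j < 6, 3 ^ j ≡ 1 [MOD 11] → j = 0 ∨ j = 5 := by decide
  have := Fact.mk (by norm_num : Nat.Prime 11)
  obtain ⟨j, hj, h1, h2⟩ := fix y_mem ord_y (by norm_num)
  obtain rfl : j = 0 := (k j (by omega) (h2.symm.trans rfl)).resolve_right hj.ne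
  have h3 := BpSpor.Cen.card_fix ord_y (h _ hy)
  rw [eq_bot_iff.2 ((inf_le_inf_right _ hB).trans (card_eq_one.1 h1).le), card_bot, h4] at h3
  rcases k i (by omega) h3 with rfl | rfl
  exacts [Or.inl (card_eq_one.1 h4), Or.inr (eq_of_le_of_card_ge hB (card_A0.trans h4.symm).le)]

theorem card_v : Nat.card ↥(A0 ⊓ centralizer {el vw}) = 3 := by
  have k : ∀ j < 5, 243 ≡ 3 ^ j [MOD 5] → j = 1 := by decide
  have := Fact.mk Nat.prime_five
  obtain ⟨j, hj, h1, h2⟩ := fix (v_mem y_mem fun n hn h hh => mul_mem (mul_mem hn hh) (inv_mem hn)) ord_v (by norm_num)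
  rw [h1, k j hj h2, pow_one]

theorem E_smul {Z : Subgroup Suz} {v : V} (h : E v ∈ Z) (s : ZMod 3) : E (s • v) ∈ Z := by
  obtain rfl | rfl | rfl := (by decide : ∀ s : ZMod 3, s = 0 ∨ s = 1 ∨ s = 1 + 1) s
  · rw [zero_smul, E_zero]
    exact one_mem _
  · rwa [one_smul]
  · rw [add_smul, one_smul, E_add]
    exact mul_mem h h

theorem card27 {Z : Subgroup Suz} (h0 : x .i0 ∈ Z) (h1 : x .i1 ∈ Z) {w : V} (hw : E w ∈ Z) (hn : w.2.2 ≠ 0) :
    27 ≤ Nat.card Z := by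
  have := finSuz
  rw [x_eq] at h0 h1
  refine (le_of_eq (by simp)).trans (Nat.card_le_card_of_injective (fun t : ZMod 3 × ZMod 3 × ZMod 3 =>
    (⟨E (t.1 • vec .i0 + t.2.1 • vec .i1 + t.2.2 • w), by
      rw [E_add, E_add]
      exact mul_mem (mul_mem (E_smul h0 _) (E_smul h1 _)) (E_smul hw _)⟩ : Z)) fun s t e => ?_)
  have h := E_injective (congrArg Subtype.val e)
  have h3 : s.2.2 = t.2.2 := smul_left_injective _ hn (by simpa [vec] using congrArg (·.2.2) h)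
  rw [h3, add_left_inj] at h
  exact Prod.ext (by simpa [vec] using congrArg (·.1) h) (Prod.ext (by simpa [vec] using congrArg (·.2.1) h) h3)

/-- the fixed points of a 3-element outside `A0` -/
theorem cent {b : Suz} (hb : b ∈ SylowThree.K) (h3 : b ^ 3 = 1) (h : b ∉ A0) :
    Nat.card ↥(A0 ⊓ centralizer {b}) ≤ 9 ∧ x .i0 ∈ A0 ⊓ centralizer {b} ∧ x .i1 ∈ A0 ⊓ centralizer {b} ∧
      x .i2 * b * (x .i2)⁻¹ * b⁻¹ ∉ A0 ⊓ centralizer {b} := by
  obtain ⟨hn, hS⟩ := SylowThree.mem_K.1 hb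
  obtain ⟨s0, s1⟩ := SylowThree.mem_S.1 hS
  have h1 := H212.SuzFive.card_fix' (b := ⟨b, hn⟩) h3 s0 s1 h
  have h2 : ∀ f, (⟨b, hn⟩ : NA) • f = f → x f ∈ A0 ⊓ centralizer {b} := fun f e => ⟨x_mem f,
    mem_centralizer_singleton_iff.2 (comm_of_three (k := 1) (by simpa [e] using smul_spec ⟨b, hn⟩ f) h3).symm⟩
  have h4 : ∀ w, E w ∈ A0 ⊓ centralizer {b} → w.2.2 = 0 := fun w hw => by_contra fun e =>
    absurd ((card27 (h2 _ s0) (h2 _ s1) hw e).trans h1) (by norm_num)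
  refine ⟨?_, h2 _ s0, h2 _ s1, fun e => ?_⟩
  · obtain ⟨j, -, hj⟩ := card_pow (inf_le_left : A0 ⊓ centralizer {b} ≤ A0)
    rw [hj] at h1 ⊢
    exact Nat.pow_le_pow_right (by norm_num : 0 < 3) (not_lt.1 fun e : 2 < j =>
      absurd ((Nat.pow_le_pow_right (by norm_num : 0 < 3) e).trans h1) (by norm_num))
  rw [show x .i2 * b * (x .i2)⁻¹ * b⁻¹ = x .i2 * (b * x .i2 * b⁻¹)⁻¹ by group] at e
  obtain ⟨f, h5 | h5⟩ := exists_sp hn .i2
  · have h6 := e
    rw [h5, x_eq, x_eq, ← E_neg, ← E_add] at h6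
    obtain rfl := (by decide : ∀ f, (vec .i2 + -vec f).2.2 = 0 → f = .i2) f (h4 _ h6)
    exact absurd (h4 _ (x_eq _ ▸ h2 _ (smul_eq (Or.inl h5)))) (by decide)
  · rw [h5, inv_inv, x_eq, x_eq, ← E_add] at e
    exact (by decide : ∀ f, (vec .i2 + vec f).2.2 ≠ 0) f (h4 _ e)

/-- **the large elementary abelian subgroups outside `A0`** -/
theorem struct {P B : Subgroup Suz} (hA : A0 ≤ P) (hK : P ≤ SylowThree.K) (hP : Nat.card P ≤ 3 ^ 7)
    (hB : IsElementaryAbelian 3 B) (hBP : B ≤ P) (h81 : 81 ≤ Nat.card B) (hn : ¬ B ≤ A0) :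
    Nat.card B ≤ 81 ∧ x .i0 ∈ B ∧ x .i1 ∈ B ∧
      81 ≤ Nat.card ↥((B ⊔ B.map (MulAut.conj (x .i2)).toMonoidHom) ⊓ A0) := by
  have := finSuz
  have h1 : ∀ b ∈ B, B ⊓ A0 ≤ A0 ⊓ centralizer {b} := fun b hb a ha =>
    ⟨ha.2, mem_centralizer_singleton_iff.2 (elemAb_comm hB ha.1 hb)⟩
  have h2 : ∀ X ≤ P, Nat.card X ≤ 9 * Nat.card ↥(X ⊓ A0) := fun X hX => by
    have h := (card_mul_card_le X A0).trans (Nat.mul_le_mul_right _ ((card_le_of_le (sup_le hX hA)).trans hP))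
    rw [card_A0] at h
    omega
  obtain ⟨b, hb, h3⟩ := SetLike.not_le_iff_exists.1 hn
  obtain ⟨h4, h5, h6, -⟩ := cent (hK (hBP hb)) (hB.2 b hb) h3
  have h7 := h2 B hBP
  have h8 := card_le_of_le (h1 b hb)
  rw [← eq_of_le_of_card_ge (h1 b hb) (by omega)] at h5 h6
  have h9 : B ⊓ B.map (MulAut.conj (x .i2)).toMonoidHom ≤ B ⊓ A0 := by
    rintro _ ⟨he, e, he', rfl⟩
    refine ⟨he, by_contra fun h => ?_⟩
    have h10 : e ∉ A0 := fun h' => h (A0.mul_mem (mul_mem (x_mem _) h') (inv_mem (x_mem _)))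
    have h11 := (SylowThree.mem_K.1 (hK (hBP he'))).1
    refine (cent (hK (hBP he')) (hB.2 e he') h10).2.2.2 (h1 e he' (mem_inf.2 ⟨mul_mem he (inv_mem he'), ?_⟩))
    rw [mul_assoc, mul_assoc, ← mul_assoc e]
    exact mul_mem (x_mem _) ((mem_normalizer_iff.1 h11 _).1 (inv_mem (x_mem _)))
  have h10 := (card_mul_card_le B (B.map (MulAut.conj (x .i2)).toMonoidHom)).trans
    (Nat.mul_le_mul_left _ ((card_le_of_le h9).trans (h8.trans h4)))
  have h11 := h2 (B ⊔ B.map (MulAut.conj (x .i2)).toMonoidHom) (sup_le hBP (by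
    rintro _ ⟨e, he, rfl⟩
    exact mul_mem (mul_mem (hA (x_mem _)) (hBP he)) (inv_mem (hA (x_mem _)))))
  have h12 := Nat.mul_le_mul h81 h81
  rw [card_map_conj] at h10
  exact ⟨by omega, h5.1, h6.1, by omega⟩

end Cfsg.Agent.TwoF.SpE.Suz
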