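import Cfsg.Agent.TwoF.SpD.Tool2
import Cfsg.Agent.TwoF.SpD.Blk
import Cfsg.Agent.TwoF.SpO.Tool
import Cfsg.Agent.TwoF.XS.Sq
import Cfsg.Agent.TwoF.XE.Wt

/-!
# TwoF / SP: more criteria for the sporadic rows (helper95)

* `EB.zc` : use of a bound `EB` in a setting; `EB.heis`, `eb_heis_all` : the elements of `r ^ (1 + 2)`;
* `eb_pure` : an elementary abelian subgroup in one class;
* `exists_inner` : an offender in characteristic two meets `K`;
* `row88_two`, `row89_two`, `row_three`, `row_rank_two` : criteria.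
-/

set_option autoImplicit false
set_option maxHeartbeats 400000
set_option linter.unusedSectionVars false

namespace Cfsg.Agent.TwoF.SpE

open Cfsg Subgroup Module Cfsg.Agent.TwoF.Gen Cfsg.Agent.TwoF.SpD Cfsg.Agent.TwoF.XE Cfsg.Agent.H859
open scoped commutatorElement

section lift

variable {K S : Type*} [Group K] [Group S] {π : K →* S} {m r : ℕ}

/-- the canonical lift of an abelian subgroup of exponent `r` -/
def lf (hk : π.ker ≤ center K) (hm : Nat.card π.ker ∣ m) (hr : r.Coprime m) {E : Subgroup S}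
    (hE : IsElementaryAbelian r E) : Subgroup K where
  carrier := {x | π x ∈ E ∧ x ^ r = 1}
  one_mem' := ⟨by rw [map_one]; exact one_mem _, one_pow r⟩
  mul_mem' := fun {a b} ha hb => ⟨by rw [map_mul]; exact mul_mem ha.1 hb.1, by
    rw [(show Commute a b from comm_of_coprime hk (elemAb_comm hE ha.1 hb.1) (hE.2 _ ha.1)
      (hr.coprime_dvd_right hm)).mul_pow, ha.2, hb.2, one_mul]⟩
  inv_mem' := fun {a} ha => ⟨by rw [map_inv]; exact inv_mem ha.1, by rw [inv_pow, ha.2, inv_one]⟩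

variable {hk : π.ker ≤ center K} {hm : Nat.card π.ker ∣ m} {hr : r.Coprime m} {E : Subgroup S}
  {hE : IsElementaryAbelian r E}

theorem mem_lf {x : K} : x ∈ lf hk hm hr hE ↔ π x ∈ E ∧ x ^ r = 1 := Iff.rfl

theorem lf_elemAb : IsElementaryAbelian r (lf hk hm hr hE) :=
  elemAb_of (fun _ ha _ hb => comm_of_coprime hk (elemAb_comm hE ha.1 hb.1) (hE.2 _ ha.1) (hr.coprime_dvd_right hm))
    fun _ ha => ha.2

theorem card_lf (hs : Function.Surjective π) : Nat.card (lf hk hm hr hE) = Nat.card E :=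
  Nat.card_congr (Equiv.ofBijective (fun x => ⟨π x, x.2.1⟩) ⟨fun x y e =>
    Subtype.ext (lift_unique hk hm hr (congrArg Subtype.val e) x.2.2 y.2.2), fun e => by
      obtain ⟨y, h1, h2⟩ := lift_exists hs hm hr (hE.2 e e.2)
      exact ⟨⟨y, h1 ▸ e.2, h2⟩, Subtype.ext h1⟩⟩)

theorem lift_conj (hs : Function.Surjective π) (hk : π.ker ≤ center K) (hm : Nat.card π.ker ∣ m) (hr : r.Coprime m)
    {x y : K} (h : IsConj (π x) (π y)) (hx : x ^ r = 1) (hy : y ^ r = 1) : IsConj x y := by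
  obtain ⟨g, hg⟩ := isConj_iff.1 h
  obtain ⟨g, rfl⟩ := hs g
  exact isConj_iff.2 ⟨g, lift_unique hk hm hr (by rw [map_mul, map_mul, map_inv, hg])
    (by rw [conj_pow, hx, mul_one, mul_inv_cancel]) hy⟩

end lift

theorem cod_conj' {k : Type*} [Field k] {Y : Type*} [Group Y] {V : Type*} [AddCommGroup V] [Module k V]
    {ρ : Representation k Y V} {s t : Y} (h : IsConj s t) : cod ρ (zpowers s) = cod ρ (zpowers t) := by
  obtain ⟨g, rfl⟩ := isConj_iff.1 h
  rw [cod_zpowers_conj]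

/-- a non-abelian Sylow subgroup of order `r ^ 3` and exponent `r` -/
theorem exists_rel {G : Type*} [Group G] [Finite G] {r : ℕ} [hr : Fact r.Prime] (h3 : r ^ 3 ∣ Nat.card G)
    (h4 : ¬ r ^ 4 ∣ Nat.card G) (he : ∀ g : G, orderOf g ≠ r ^ 2 ∧ orderOf g ≠ r ^ 3) {y : G} (hy : y ^ r = 1)
    (hy' : ¬ r ^ 3 ∣ Nat.card (centralizer ({y} : Set G))) : ∃ a b w : G, Heis.Rel r a b w := by
  obtain ⟨P, hP⟩ := (elemAb_isPGroup (elemAb_zpowers hy)).exists_le_sylow
  have c : Nat.card (P : Subgroup G) = r ^ 3 := by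
    rw [P.card_eq_multiplicity]
    exact congrArg _ (le_antisymm (Nat.le_of_lt_succ (not_le.1 fun h => h4
      ((hr.out.pow_dvd_iff_le_factorization Nat.card_pos.ne').2 h)))
      ((hr.out.pow_dvd_iff_le_factorization Nat.card_pos.ne').1 h3))
  obtain ⟨q, hq, h5⟩ := SetLike.not_le_iff_exists.1 fun h : (P : Subgroup G) ≤ centralizer {y} =>
    hy' (c ▸ card_dvd_of_le h)
  have h6 : ∀ x : (P : Subgroup G), x ^ r = 1 := fun x => by
    obtain ⟨l, h6, hl⟩ := (Nat.dvd_prime_pow hr.out).1 (c ▸ orderOf_dvd_natCard x)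
    have h7 := he x
    rw [orderOf_coe, hl] at h7
    have h8 : l ≠ 2 := fun e => h7.1 (by rw [e])
    have h9 : l ≠ 3 := fun e => h7.2 (by rw [e])
    exact orderOf_dvd_iff_pow_eq_one.1 (hl ▸ (pow_dvd_pow r (by omega : l ≤ 1)).trans (pow_one r).dvd)
  let a : (P : Subgroup G) := ⟨y, hP (mem_zpowers y)⟩
  let b : (P : Subgroup G) := ⟨q, hq⟩
  have h7 : b * a ≠ a * b := fun e => h5 (mem_centralizer_singleton_iff.2 (congrArg Subtype.val e))
  obtain ⟨h8, -⟩ := Heis.extraspecial c ⟨b, a, h7⟩ h6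
  have h9 : ⁅b⁻¹, a⁻¹⁆ ∈ center (P : Subgroup G) := by
    rw [← h8.1.2.2]
    exact commutator_mem_commutator (mem_top _) (mem_top _)
  refine ⟨a, b, (⁅b⁻¹, a⁻¹⁆ : (P : Subgroup G)), hy, congrArg Subtype.val (h6 b), congrArg Subtype.val (h6 _),
    congrArg Subtype.val (mem_center_iff.1 h9 a), congrArg Subtype.val (mem_center_iff.1 h9 b), ?_, fun e => h7 ?_⟩
  · exact congrArg Subtype.val (show b * a = a * b * ⁅b⁻¹, a⁻¹⁆ by rw [commutatorElement_def]; group)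
  · have h10 : ⁅b⁻¹, a⁻¹⁆ = 1 := Subtype.ext e
    rw [commutatorElement_eq_one_iff_mul_comm, ← mul_inv_rev, ← mul_inv_rev, inv_inj] at h10
    exact h10.symm

variable {p : ℕ} [hp : Fact p.Prime] {m n n' : ℕ} {S : Type} [Group S] {s t : S}

/-- `y` is conjugate to `y z` under the centraliser of `z` -/
theorem _root_.Cfsg.Agent.TwoF.SpD.EB.heis {y z q : S} {r : ℕ} (h : EB p m z n) (hr : r.Prime) (hrp : r ≠ p)
    (hrm : r.Coprime m) (h1 : y * z = z * y) (h2 : q * z = z * q) (h3 : q * y * q⁻¹ = y * z) (hy : y ^ r = 1)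
    (hz : z ^ r = 1) (hn : r * n' < (r - 1) * n + r) : EB p m y n' := by
  intro K _ _ π k1 k2 k3 U _ _ _ σ k4 x k5
  obtain ⟨y', k6, k7, k8⟩ := lift_mem k3 hrm (k5 ▸ hy)
  obtain ⟨z, rfl, k9⟩ := lift_exists k1 k3 hrm hz
  obtain ⟨q, rfl⟩ := k1 q
  rw [k5] at k7
  subst k7
  have c := hrm.coprime_dvd_right k3
  have k10 := comm_of_coprime k2 h1 hy c
  have k11 := heis_cod_eq (ρ := σ) k10 (comm_of_coprime k2 h2.symm hz c).symm (lift_unique k2 k3 hrm
    (by rw [map_mul, map_mul, map_inv, map_mul, h3]) (by rw [conj_pow, k8, mul_one, mul_inv_cancel])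
    (by rw [(show Commute y' z from k10).mul_pow, k8, k9, one_mul])) hr (cast_ne hr hrp) k8 k9
  have k12 := Nat.mul_le_mul_left r (cod_mono (ρ := σ) (le_sup_left : zpowers z ≤ zpowers z ⊔ zpowers y'))
  have k13 := Nat.mul_le_mul_left (r - 1) (h K π k1 k2 k3 U σ k4 z rfl)
  have k14 := Nat.mul_le_mul_left r (cod_mono (ρ := σ) (zpowers_le.2 k6))
  obtain ⟨r, rfl⟩ := Nat.exists_eq_succ_of_ne_zero hr.ne_zero
  rw [Nat.succ_sub_one] at hn k13
  refine Nat.lt_succ_iff.1 (lt_of_mul_lt_mul_left (a := r.succ) ?_ (Nat.zero_le _))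
  rw [Nat.succ_mul r (cod σ (zpowers z))] at k12
  rw [Nat.mul_succ]
  omega

theorem _root_.Cfsg.Agent.TwoF.SpD.EB.of_mem [Finite S] (h : EB p m s n) (hs : s ∈ zpowers t) : EB p m t n := by
  obtain ⟨k, rfl⟩ := mem_powers_iff_mem_zpowers.2 hs
  exact h.of_pow

theorem mem_zpowers_symm {G : Type*} [Group G] [Finite G] {r : ℕ} (hr : r.Prime) {a b : G} (hb : b ^ r = 1)
    (h : a ∈ zpowers b) (ha : a ≠ 1) : b ∈ zpowers a := by
  have := Fact.mk hr
  have h1 : b ≠ 1 := by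
    rintro rfl
    exact ha (by simpa using h)
  have h2 := card_dvd_of_le (zpowers_le.2 h)
  rw [Nat.card_zpowers, Nat.card_zpowers, orderOf_eq_prime hb h1] at h2
  rw [eq_of_le_of_card_ge (zpowers_le.2 h) (by
    rw [Nat.card_zpowers, Nat.card_zpowers, orderOf_eq_prime hb h1,
      ((Nat.dvd_prime hr).1 h2).resolve_left fun e => ha (orderOf_eq_one_iff.1 e)])]
  exact mem_zpowers b

/-- all the elements of order `r`, for a Sylow subgroup `r ^ (1 + 2)` -/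
theorem eb_heis_all [Finite S] {r : ℕ} (hr : r.Prime) (hrp : r ≠ p) (hrm : r.Coprime m) {a b : S}
    (H : Heis.Rel r a b s) (h4 : ¬ r ^ 4 ∣ Nat.card S) (h : EB p m s n) (hn : r * n' < (r - 1) * n + r) (hn' : n' ≤ n)
    (ht : orderOf t = r) : EB p m t n' := by
  have := Fact.mk hr
  obtain ⟨u, hu, h1⟩ := exists_conj (p := r) (s := t) (e := 1) (Heis.card H) h4
    (by rw [pow_one, ← ht, pow_orderOf_eq_one])
  refine EB.conj ?_ h1.symm
  obtain ⟨g, rfl⟩ := isConj_iff.1 h1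
  rw [← MulAut.conj_apply, MulEquiv.orderOf_eq] at ht
  have h2 : u ≠ 1 := by
    rintro rfl
    exact hr.one_lt.ne (by rwa [orderOf_one] at ht)
  by_cases hc : ∀ x ∈ Heis.gp H, u * x = x * u
  · exact (h.of_mem (mem_zpowers_symm hr H.wp (Heis.center_le H hu hc) h2)).mono hn'
  push Not at hc
  obtain ⟨x, hx, h3⟩ := hc
  have h5 := heis_comm H _ (inv_mem hu) _ hx
  have h6 : ⁅u⁻¹, x⁆ ≠ 1 := fun e => h3 (Commute.inv_left_iff.1 (commutatorElement_eq_one_iff_mul_comm.1 e))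
  obtain ⟨j, hj⟩ := mem_zpowers_iff.1 h5
  exact (h.of_mem (mem_zpowers_symm hr H.wp h5 h6)).heis (q := x) hr hrp hrm
    (hj ▸ (Commute.zpow_right (Heis.w_comm H hu).symm j).eq) (hj ▸ (Commute.zpow_right (Heis.w_comm H hx).symm j).eq)
    (by rw [commutatorElement_def]; group) (ht ▸ pow_orderOf_eq_one u)
    (by rw [← hj, ← zpow_natCast, ← zpow_mul, mul_comm, zpow_mul, zpow_natCast, H.wp, one_zpow]) hn

/-- an elementary abelian subgroup whose non-trivial elements are conjugate -/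
theorem eb_pure {r e : ℕ} (hr : r.Prime) (hrp : r ≠ p) (hrm : r.Coprime m) {E : Subgroup S}
    (hE : IsElementaryAbelian r E) (hc : Nat.card E = r ^ (e + 1)) (h : ∀ a ∈ E, a ≠ 1 → IsConj a t) (h1 : t ≠ 1)
    (ht : t ^ r = 1) : EB p m t (r ^ e) := by
  classical
  intro K _ _ π k1 k2 k3 U _ _ _ σ k4 x k5
  obtain ⟨y, k6, k7, k8⟩ := lift_mem k3 hrm (k5 ▸ ht)
  refine le_trans (Nat.le_of_dvd (cod_pos k4 fun e => h1 ?_) ?_) (cod_mono (zpowers_le.2 k6))
  · rw [← k5, ← k7, zpowers_eq_bot.1 e, map_one]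
  have := Fintype.ofFinite (lf k2 k3 hrm hE)
  have k9 := sum_cod_elt (ρ := σ) (R := lf k2 k3 hrm hE) (fun a ha b hb => elemAb_comm lf_elemAb ha hb) hr
    (cast_ne hr hrp) fun a ha => ha.2
  rw [← Finset.add_sum_erase _ _ (Finset.mem_univ 1), Finset.sum_congr rfl (g := fun _ => cod σ (zpowers y))
    fun (g : lf k2 k3 hrm hE) hg => cod_conj' (lift_conj k1 k2 k3 hrm (by
      rw [k7, k5]
      exact h _ g.2.1 fun e => Finset.ne_of_mem_erase hg (Subtype.ext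
        (lift_unique k2 k3 hrm (e.trans (map_one π).symm) g.2.2 (one_pow r)))) g.2.2 k8), Finset.sum_const,
    Finset.card_erase_of_mem (Finset.mem_univ _), smul_eq_mul, Finset.card_univ, ← Nat.card_eq_fintype_card,
    card_lf k1, hc, OneMemClass.coe_one, zpowers_one_eq_bot, cod_bot, zero_add, pow_succ' r e, mul_comm (r - 1),
    mul_assoc, mul_assoc] at k9
  refine Nat.Coprime.dvd_of_dvd_mul_left ?_ ⟨_, Nat.eq_of_mul_eq_mul_left hr.pos k9⟩
  refine Nat.Coprime.pow_left _ ((hr.coprime_iff_not_dvd).2 fun e => hr.not_dvd_one ((Nat.dvd_add_right e).1 ?_))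
  rw [Nat.sub_add_cancel (Nat.mul_pos hr.pos (pow_pos hr.pos _))]
  exact dvd_mul_right r _

/-- the eigenvalues of an element of prime order -/
theorem eb_rat {r : ℕ} (hr : r.Prime) (hrp : r ≠ p) (hrm : r.Coprime m) (hs : orderOf s = r) (J : Finset (ZMod r))
    (hJ : ∀ j ∈ J, ∃ i l : ℕ, IsConj s (s ^ i) ∧ j = ((i * p ^ l : ℕ) : ZMod r)) : EB p m s J.card := by
  intro K _ _ π h1 h2 h3 U _ _ _ σ h4 x h5
  obtain ⟨z, h6, h7, h8⟩ := lift_mem h3 hrm (h5 ▸ hs ▸ pow_orderOf_eq_one s)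
  refine le_trans (le_of_eq_of_le (mul_one _).symm (card_mul_le_cod_zpowers (ρ := σ) hr h8 (cast_ne hr hrp)
    (fun e => hr.one_lt.ne ?_) J (fun j hj => ?_) fun _ _ h => h)) (cod_mono (zpowers_le.2 h6))
  · rw [← hs, ← h5, ← h7, h4 (e.trans (map_one σ).symm), map_one, orderOf_one]
  · obtain ⟨i, l, h9, rfl⟩ := hJ j hj
    obtain ⟨g, hg⟩ := isConj_iff.1 (lift_conj (x := z) (y := z ^ i) h1 h2 h3 hrm (by rwa [map_pow, h7, h5]) h8
      (by rw [← pow_mul, mul_comm, pow_mul, h8, one_pow]))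
    exact ⟨g⁻¹, i, l, by rw [inv_inv, hg], by rw [ZMod.card]⟩

section sit

variable {Y : Type} [Group Y] [Finite Y] {V : Type} [AddCommGroup V] [Module (ZMod p) V] [Finite V]
  {K : Subgroup Y} {ρ : Representation (ZMod p) Y V} {π : K →* S} {φ : Y →* MulAut S}

theorem _root_.Cfsg.Agent.TwoF.SpD.EB.zc (h : EB p m s n) (H : Sit p K ρ π φ) (hm : Zc p S m) {x : K}
    (hx : π x = s) : n ≤ cod ρ (zpowers (x : Y)) := by
  have h1 := h K π H.surj H.ker_π.le (hm.ker_π H) V (ρ.comp K.subtype) (H.faithful.comp K.subtype_injective) x hx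
  rwa [cod_comp, MonoidHom.map_zpowers] at h1

omit hp in
theorem zc_of_mul (hp : p.Prime) (h : HasCyclicSchurMultiplier S (p * m)) : Zc p S m := fun K _ _ π h1 h2 =>
  (hp.coprime_iff_not_dvd.2 h2).symm.dvd_of_dvd_mul_left (card_ker_dvd' h K π h1)

omit [Finite V] in
theorem ord_img (H : Sit p K ρ π φ) {x : K} (h : (x : Y) ^ p = 1) (h1 : (x : Y) ≠ 1) : orderOf (π x) = p :=
  orderOf_eq_prime (by rw [← map_pow, show x ^ p = 1 from Subtype.ext h, map_one]) fun e =>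
    h1 (H.toStp.eq_one_of_mem_centralizer (n := 1) (by rwa [pow_one]) (H.toFrm.π_eq_one_iff.1 e))

/-- an offender of rank two whose elements have codimension at least four -/
theorem cub_of_sq {A : Subgroup Y} (hA : Off p ρ A) (hc : Nat.card A = p ^ 2)
    (h : ∀ a ∈ A, a ≠ 1 → 4 ≤ cod ρ (zpowers a)) : Cub ρ A := by
  by_contra hn
  obtain ⟨v, hv, h3⟩ := exists_asc_four (p := p) (elemAb_isPGroup hA.1) hn
  obtain ⟨ψ, a, ha, b, hb, c, hc', h4⟩ := exists_tri_ne h3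
  have n : trad hv ψ ≠ A := fun e => h4 ((mem_trad.1 (e.ge ha)).2 b hb c hc')
  obtain ⟨d, hd, h5⟩ := (trad hv ψ).bot_or_exists_ne_one.resolve_left (XS.trad_ne_bot hA hv ψ)
  have h6 := XS.trad_le hv ψ hd
  obtain ⟨r, -, h7, h8⟩ := hA.exists_card
  rw [hc, Nat.pow_right_inj hp.out.one_lt] at h7
  have h9 := XL.fx_eq_of_cod_le (ρ := ρ) (zpowers_le.2 h6) (by have := h d h6 h5; omega)
  refine h3 (mem_asc_three.2 fun c hc' b hb a ha => sub_eq_zero.2 ?_)
  have h10 : (ρ b - 1) ((ρ c - 1) v) ∈ fx ρ A := by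
    rw [h9, fx_zpowers]
    exact (Module.forall_dual_apply_eq_zero_iff (ZMod p) _).1 fun χ =>
      (mem_trad.1 (XS.trad_le_trad hA hc hv hv n χ hd)).2 b hb c hc'
  exact h10 a ha

end sit

/-- characteristic three -/
theorem row_three [Fact (Nat.Prime 3)] (ho : ¬ 3 ∣ Nat.card (Out S)) (hm : Zc 3 S m) {e : ℕ}
    (h1 : ∀ E : Subgroup S, IsElementaryAbelian 3 E → Nat.card E ≤ 3 ^ e)
    (h2 : ∀ t : S, orderOf t = 3 → EB 3 m t (2 * e)) : Row 3 S := by
  refine ⟨row88_of_sit fun Y _ _ V _ _ _ K ρ π φ H A hA => ⟨A, hA, ?_⟩, row89_of_not_dvd ho⟩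
  have h3 := card_img H (elemAb_isPGroup hA.1)
  have h4 := H.toFrm.le_of_not_dvd (elemAb_isPGroup hA.1) ho
  rw [relIndex_eq_one.2 h4, mul_one] at h3
  exact SpO.cub_of_rank hA (h3.ge.trans (h1 _ (elemAb_img hA.1))) fun a ha h5 =>
    (h2 _ (ord_img H (x := ⟨a, h4 ha⟩) (hA.1.2 a ha) h5)).zc H hm (x := ⟨a, h4 ha⟩) rfl

/-- rank at most two -/
theorem row_rank_two (ho : ¬ p ∣ Nat.card (Out S)) (hm : Zc p S m)
    (h1 : ∀ E : Subgroup S, IsElementaryAbelian p E → ∀ j, 2 ≤ j → Nat.card E = p ^ j → j = 2)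
    (h2 : ∀ t : S, orderOf t = p → EB p m t 4) : Row p S := by
  refine ⟨row88_of_sit fun Y _ _ V _ _ _ K ρ π φ H A hA => ⟨A, hA, by_contra fun hc => hc ?_⟩, row89_of_not_dvd ho⟩
  obtain ⟨j, -, h5, -⟩ := hA.exists_card
  have h3 := card_img H (elemAb_isPGroup hA.1)
  have h4 := H.toFrm.le_of_not_dvd (elemAb_isPGroup hA.1) ho
  rw [relIndex_eq_one.2 h4, mul_one, h5] at h3
  have h6 := (Nat.pow_dvd_pow_iff_le_right hp.out.one_lt).1 (h5 ▸ hA.pow_dvd_of_not_cub hc)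
  have h7 := one_le_small p
  obtain rfl := h1 _ (elemAb_img hA.1) j (by omega) h3
  exact cub_of_sq hA h5 fun a ha h5 =>
    (h2 _ (ord_img H (x := ⟨a, h4 ha⟩) (hA.1.2 a ha) h5)).zc H hm (x := ⟨a, h4 ha⟩) rfl

omit hp

section two

variable {Y : Type} [Group Y] [Finite Y] {V : Type} [AddCommGroup V] [Module (ZMod 2) V] [Finite V]
  {K : Subgroup Y} {ρ : Representation (ZMod 2) Y V} {π : K →* S} {φ : Y →* MulAut S} {A : Subgroup Y}

omit [Finite V] in
theorem rank_le (H : Sit 2 K ρ π φ) (ho : Nat.card (Out S) ∣ 2) (hA : IsElementaryAbelian 2 A) {r : ℕ}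
    (h1 : Nat.card A = 2 ^ r) : ∃ j, Nat.card ((A.subgroupOf K).map π) = 2 ^ j ∧ r ≤ j + 1 ∧ (A ≤ K → r = j) := by
  have : Finite S := Finite.of_surjective π H.surj
  have h3 := card_img H (elemAb_isPGroup hA)
  obtain ⟨j, hj⟩ := (elemAb_isPGroup (elemAb_img (π := π) hA)).exists_card_eq
  refine ⟨j, hj, (Nat.pow_le_pow_iff_right one_lt_two).1 ?_, fun h => ?_⟩
  · rw [← h1, ← h3, hj, pow_succ]
    exact Nat.mul_le_mul_left _ (Nat.le_of_dvd two_pos ((H.toFrm.relIndex_dvd A).trans ho))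
  · rw [relIndex_eq_one.2 h, mul_one, hj, h1] at h3
    exact (Nat.pow_right_injective le_rfl h3).symm

/-- **an offender meets `K`** (the proof is that of `SpD.noOff_two`, helper55) -/
theorem exists_inner (H : Sit 2 K ρ π φ) (ho : Nat.card (Out S) ∣ 2) (he : 2 ∣ Nat.card S)
    (h5 : ∀ y : K, orderOf (π y) = 2 → 5 ≤ cod ρ (zpowers (y : Y))) (hA : Off 2 ρ A) :
    ∃ x : K, (x : Y) ∈ A ∧ orderOf (π x) = 2 := by
  classical
  obtain ⟨r, h0, h1, h2⟩ := hA.exists_card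
  have : Finite S := Finite.of_surjective π H.surj
  obtain ⟨j, hj, h4, -⟩ := rank_le H ho hA.1 h1
  rcases j.eq_zero_or_pos with rfl | h6
  swap
  · obtain ⟨_, ⟨x, h4, rfl⟩, h5⟩ := exists_elt h6 hj
    exact ⟨x, h4, h5⟩
  exfalso
  obtain ⟨⟨u, hu⟩, h6⟩ := ne_bot_iff_exists_ne_one.1 hA.2.1
  have h7 : u ≠ 1 := fun e => h6 (Subtype.ext e)
  have h8 := hA.1.2 u hu
  have h9 : u ∉ K := fun e => h7 (H.toStp.eq_one_of_mem_centralizer (n := 1) h8 (H.toFrm.π_eq_one_iff (x := ⟨u, e⟩).1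
    (mem_bot.1 (card_eq_one.1 hj ▸ mem_map_of_mem π (show (⟨u, e⟩ : K) ∈ A.subgroupOf K from hu)))))
  have := H.normal
  obtain ⟨P, hP⟩ := (elemAb_isPGroup hA.1).exists_le_sylow
  by_cases hi : ∀ g : Y, g * u * g⁻¹ ∈ P → g * u * g⁻¹ = u
  · obtain ⟨N, h10, h11, h12⟩ := S0215.result P u (orderOf_eq_prime h8 h7) (hP hu) hi
    rcases H.toStp.normal_cases (N := N) (by rw [normalizer_eq_top]; exact le_top) with e | e
    · exact h11.not_two_dvd_nat ((he.mul_left _).trans (H.toFrm.card_K ▸ card_dvd_of_le e))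
    · refine h9 (H.cent (H.toStp.le_centralizer_of_commutator (N := A) (commutator_le.2 fun a ha g _ => ?_) hu))
      have h13 : A = zpowers u := (eq_of_le_of_card_ge (zpowers_le.2 hu) (by
        rw [Nat.card_zpowers, orderOf_eq_prime h8 h7, h1, show r = 1 by omega, pow_one])).symm
      rw [h13, mem_zpowers_iff_mem_range_orderOf, orderOf_eq_prime h8 h7] at ha
      obtain ⟨i, hi, rfl⟩ := Finset.mem_image.1 ha
      rcases (by have := Finset.mem_range.1 hi; omega : i = 0 ∨ i = 1) with rfl | rfl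
      · rw [pow_zero, commutatorElement_one_left]; exact one_mem _
      · rw [pow_one]; exact e (h12 g)
  push Not at hi
  obtain ⟨g, h10, h11⟩ := hi
  have h12 : K.index = 2 := ((Nat.dvd_prime Nat.prime_two).1 (H.toFrm.index_dvd.trans ho)).resolve_left fun e =>
    h9 (index_eq_one.1 e ▸ mem_top u)
  have h13 : g * u * g⁻¹ * u ∈ K := (mul_mem_iff_of_index_two h12).2
    (iff_of_false (fun e => h9 (by simpa [mul_assoc] using this.conj_mem' _ e g)) h9)
  obtain ⟨e, he⟩ := P.isPGroup' ⟨_, mul_mem h10 (hP hu)⟩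
  obtain ⟨l, -, hl⟩ := (Nat.dvd_prime_pow Nat.prime_two).1
    (orderOf_dvd_of_pow_eq_one (show (g * u * g⁻¹ * u) ^ 2 ^ e = 1 from congrArg Subtype.val he))
  obtain ⟨⟨y, hy⟩, h14⟩ := exists_prime_orderOf_dvd_card' (G := zpowers (g * u * g⁻¹ * u)) 2 (by
    rw [Nat.card_zpowers, hl]
    refine dvd_pow_self 2 fun e => h11 ?_
    rw [e, pow_zero, orderOf_eq_one_iff, mul_eq_one_iff_eq_inv] at hl
    rw [hl, inv_eq_iff_mul_eq_one, ← pow_two, h8])
  rw [← orderOf_coe] at h14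
  have h16 := h5 ⟨y, zpowers_le.2 h13 hy⟩ (ord_img H (h14 ▸ pow_orderOf_eq_one y) fun e => by
    rw [show ((⟨y, hy⟩ : zpowers _) : Y) = 1 from e, orderOf_one] at h14
    omega)
  have h17 := (cod_mono (ρ := ρ) (zpowers_le.2 hy)).trans (cod_zpowers_mul_le _ _)
  have h18 := cod_mono (ρ := ρ) (zpowers_le.2 hu)
  rw [cod_zpowers_conj] at h17
  dsimp only at h16
  omega

/-- a non-cubic offender -/
theorem cub_of_elt (H : Sit 2 K ρ π φ) (ho : Nat.card (Out S) ∣ 2) (hA : Off 2 ρ A)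
    (h : ∀ j, 3 ≤ j → Nat.card ((A.subgroupOf K).map π) = 2 ^ j → ∃ x ∈ A, 2 * j ≤ cod ρ (zpowers x)) : Cub ρ A := by
  by_contra hc
  obtain ⟨r, -, h1, h2⟩ := hA.exists_card
  obtain ⟨j, hj, h3, -⟩ := rank_le H ho hA.1 h1
  have h4 := (Nat.pow_dvd_pow_iff_le_right one_lt_two).1 (h1 ▸ hA.pow_dvd_of_not_cub hc)
  rw [small_two] at h4
  obtain ⟨x, hx, h5⟩ := h j (by omega) hj
  have h6 := cod_add_three_le_of_not_cub hA.1 hc hx
  omega

end two

theorem row88_two (ho : Nat.card (Out S) ∣ 2) (hm : Zc 2 S m)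
    (h : ∀ E : Subgroup S, IsElementaryAbelian 2 E → ∀ j, 3 ≤ j → Nat.card E = 2 ^ j → ∃ t ∈ E, EB 2 m t (2 * j)) :
    Row88 2 S :=
  row88_of_sit fun _ _ _ _ _ _ _ _ _ _ _ H A hA => ⟨A, hA, cub_of_elt H ho hA fun j h1 h2 => by
    obtain ⟨_, ⟨x, h3, rfl⟩, h4⟩ := h _ (elemAb_img hA.1) j h1 h2
    exact ⟨x, h3, h4.zc H hm rfl⟩⟩

/-- the automorphisms that fix a group of order `2 ^ e` are inner, all involutions have codimension above `2 e` -/
theorem row89_two (ho : Nat.card (Out S) ∣ 2) (hm : Zc 2 S m) (he : 2 ∣ Nat.card S) {e : ℕ} (h2 : 2 ≤ e)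
    (h : ∀ t : S, orderOf t = 2 → EB 2 m t (2 * e + 1))
    (hi : ∀ E : Subgroup S, IsElementaryAbelian 2 E → 2 ^ e ≤ Nat.card E → ∀ α : MulAut S, (∀ x ∈ E, α x = x) →
      α ∈ Inn S) : Row89 2 S :=
  row89_of_sit fun Y _ _ V _ _ _ K ρ π φ H A hA _ _ _ hK => by
    exfalso
    obtain ⟨x, h3, h4⟩ := exists_inner H ho he (fun y hy => le_trans (by omega) ((h _ hy).zc H hm rfl)) hA
    obtain ⟨r, -, h5, h6⟩ := hA.exists_card
    obtain ⟨j, hj, h7, -⟩ := rank_le H ho hA.1 h5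
    have h8 := ((h _ h4).zc H hm rfl).trans (cod_mono (zpowers_le.2 h3))
    refine hK fun u hu => H.toFrm.mem_inn_iff.1 (hi _ (elemAb_img (π := π) hA.1)
      (hj ▸ Nat.pow_le_pow_right two_pos (by omega)) _ ?_)
    rintro _ ⟨y, hy, rfl⟩
    exact H.conj u y y (by rw [elemAb_comm (b := (y : Y)) hA.1 hu hy, mul_inv_cancel_right])

end Cfsg.Agent.TwoF.SpE
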