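import Cfsg.Agent.TwoF.SpE.SuzCov
import Cfsg.Agent.TwoF.SpE.T2
import Cfsg.Agent.TAB.Suz.Main
import Cfsg.Agent.CTwoTab.Suz

/-!
# TwoF / SP: what the character table of `Suz` gives (helper95)
-/

set_option autoImplicit false
set_option maxHeartbeats 400000
set_option maxRecDepth 100000

namespace Cfsg.Agent.TwoF.SpE.Suz

open Cfsg Subgroup Cfsg.Agent.TwoF.Gen Cfsg.Agent.TwoF.SpD Cfsg.Agent.TwoF.SpO Cfsg.Agent.TAB.Eng Cfsg.Agent.TAB.Sz
open Cfsg.Spor (Suz)
open Cfsg.Agent.SporadicRecognition.SuzOrder (el card_Suz)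
open Cfsg.Agent.SporadicRecognition.SuzPhi (wd)
open Cfsg.Agent.SuzThree.Basic

/-- order three -/
def c3 : List (ℕ × List ℤ) := [(4, [4981616640, -34836480, 34214400, -31933440, 4976640, 8709120, 838656, 2322432,
    -1451520, 0, -1576960, -1576960, 0, 124416, -92160, 0, 392931, 331776, 498960, -84480, 124416, 0, -178605, 0,
    81081, 157696, 0, 0, 0, -122880, -55055]), (6, [23417178744960, -260754318720, -14517597600, -42933512160,
    -11710189440, 14849866080, 742289184, 2968285824, -2931979680, -4410461664, -1699125120, -2881549440, -1114798464,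
    -740127456, -555431040, 210389400, 136571589, -146966400, 1052774415, -23701920, -319990176, -255177000,
    -126375795, 212642496, -1923831, 179332384, 262289664, -67476240, -91974400, 12785280, -112207095]), (36,
    [-4775813602560, -34011290880, 15050059200, -6484484160, -15613896960, -10342080, -3058945344, -2308352256,
    -306918720, -275317056, -320221440, 765712640, 379779840, 259454016, -117538560, 98852400, 96380361, -150729984,
    182151585, 123203520, 17309376, -23166000, -90756855, 63866880, 88827921, 154083776, -41029632, 0, 153036800,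
    -231194880, -18873855])]

/-- order five -/
def c5 : List (ℕ × List ℤ) := [(14, [3396556800, 0, 9331200, -4354560, 0, 0, 0, 0, 0, 0, -215040, 179200, 0, 0, 0, 0,
    -51030, 0, 42525, 38400, 0, 0, 0, -20736, 0, -17920, 0, 0, 0, 0, 13650]), (34, [3396556800, 0, 9331200, -4354560,
    0, 0, 0, 0, 0, 0, -215040, 179200, 0, 0, 0, 0, -51030, 0, 42525, 38400, 0, 0, 0, -20736, 0, -17920, 0, 0, 0, 0,
    13650])]

theorem ok3 : okOrdP dat rowA (fun u => dat.pwf u 7 == 31) 3 c3 = true := by decide +kernel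

theorem ok5 : okOrdP dat rowA (fun u => dat.ord u % 11 == 0) 5 c5 = true := by decide +kernel

theorem ty1 : td.ty 1 = 0 := ty_one (by decide +kernel)

theorem el_ne {w : List Spor.Suz.Gen} (p r : ℕ) (h : (mv (wd w) p r && p != r) = true) : el w ≠ 1 := fun e => by
  rw [Bool.and_eq_true, bne_iff_ne] at h
  have h1 := (Rep.el w).pt h.1
  rw [e, map_one] at h1
  exact h.2 h1

theorem el_conj (g : List Spor.Suz.Gen) {v w : List Spor.Suz.Gen} (h : eqm (0, g ++ v) (0, w ++ g) = true) :
    IsConj (el v) (el w) :=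
  isConj_iff.2 ⟨el g, by rw [mul_inv_eq_iff_eq_mul, ← el_append, ← el_append, el_eq h]⟩

theorem el_pow {w : List Spor.Suz.Gen} (n : ℕ) {v : List Spor.Suz.Gen}
    (h : eqm (pl (fun _ => (0, w)) (List.replicate n 0)) (0, v) = true) : el w ^ n = el v := by
  have h1 := map_eq H58.SuzRep.q_z h
  rwa [val_pl, List.map_replicate, List.prod_replicate, map_pow, q_val, q_val] at h1

theorem a_ne : el [.a] ≠ 1 := el_ne 2 3 (by decide +kernel)

theorem ty_a : td.ty (el [.a]) = 1 := by
  have h1 : el [.c, .d] ^ 4 = el [.a] := el_pow 4 (by decide +kernel)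
  have := Fact.mk Nat.prime_two
  have h2 : orderOf (el [.c, .d]) = 2 ^ (2 + 1) := orderOf_eq_prime_pow (fun e => a_ne (h1.symm.trans e))
    (by rw [pow_succ 2, pow_mul, show 2 ^ 2 = 4 from rfl, h1, pow_two, gen_sq])
  rw [← h1, td.pow]
  exact (by decide +kernel : ∀ i < dat.n, dat.ord i = 2 ^ (2 + 1) → dat.pwf i 4 = 1) _ (td.lt _)
    ((td.ord _).symm.trans h2)

theorem two_types {t : Suz} (h : t ^ 2 = 1) (h1 : t ≠ 1) : td.ty t = 1 ∨ td.ty t = 31 := by
  have := Fact.mk Nat.prime_two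
  simpa using ty_mem (T := td) (L := [1, 31]) (q := 2) (by decide +kernel) (orderOf_eq_prime h h1)

/-- the rank is at most seven -/
theorem rank_seven {E : Subgroup Suz} (hE : IsElementaryAbelian 2 E) {j : ℕ} (hj : Nat.card E = 2 ^ j) : j ≤ 7 := by
  by_contra h
  obtain ⟨a, b, h4, -, h6⟩ := Blk.count ty1 E fun e he => two_types (hE.2 e he)
  have h7 := Blk.chRow_part tab (by decide +kernel)
  obtain ⟨c, h8⟩ : 2 ^ 8 ∣ Nat.card E := (pow_dvd_pow 2 (by omega)).trans hj.symm.dvd
  obtain ⟨m, hm⟩ := h6 _ (h7 (rowA.getD 1 []) (by decide +kernel))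
  obtain ⟨n, hn⟩ := h6 _ (h7 (rowA.getD 2 []) (by decide +kernel))
  rw [show nth (rowA.getD 1 []) 0 = 143 by decide +kernel, show nth (rowA.getD 1 []) 1 = 15 by decide +kernel,
    show nth (rowA.getD 1 []) 31 = -1 by decide +kernel, h8, Nat.cast_mul, mul_assoc] at hm
  rw [show nth (rowA.getD 2 []) 0 = 364 by decide +kernel, show nth (rowA.getD 2 []) 1 = 44 by decide +kernel,
    show nth (rowA.getD 2 []) 31 = 0 by decide +kernel, h8, Nat.cast_mul, mul_assoc] at hn
  generalize (c : ℤ) * m = u at hm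
  generalize (c : ℤ) * n = v at hn
  omega

/-- a subgroup without an element of the class of `e` -/
theorem rank_six {E : Subgroup Suz} (hE : IsElementaryAbelian 2 E) {j : ℕ} (hj : Nat.card E = 2 ^ j)
    (h : ∀ t ∈ E, ¬ IsConj (el [.e]) t) : j ≤ 6 := by
  have h1 := pure_dvd (irr_mkRows tab (rowA.getD 4 []) (by decide +kernel)) ty1 (E := E) (i := 1) fun t ht h2 =>
    (TD.ty_isConj ((CTwoTab.Suz.classes (by rw [← pow_two, hE.2 t ht]) h2).resolve_right (h t ht))).trans ty_a
  rw [hj, show nth (rowA.getD 4 []) 0 - nth (rowA.getD 4 []) 1 = (960 : ℕ) by decide +kernel,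
    Int.natCast_dvd_natCast] at h1
  exact not_lt.1 fun e => absurd ((pow_dvd_pow 2 e).trans h1) (by norm_num)

theorem prod_three {t : Suz} (ht : orderOf t = 3) : ∃ a, IsConj (el [.e]) ((a * t * a⁻¹ * t) ^ 7) := by
  obtain ⟨a, ha⟩ := exists_prod_ord ty1 (irr_mkRows tab) ok3 ht
  rw [beq_iff_eq, ← td.pow] at ha
  have h1 := td.ord ((a * t * a⁻¹ * t) ^ 7)
  rw [ha, show dat.ord 31 = 2 by decide +kernel] at h1
  refine ⟨a, (CTwoTab.Suz.classes (by rw [← pow_two, ← h1, pow_orderOf_eq_one]) fun e => ?_).resolve_left fun e => ?_⟩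
  · rw [e, orderOf_one] at h1
    omega
  · exact absurd (ha.symm.trans ((TD.ty_isConj e).trans ty_a)) (by decide)

theorem conj_eleven {x y : Suz} (hx : orderOf x = 11) (hy : orderOf y = 11) : IsConj x y := by
  have := Fact.mk (by norm_num : Nat.Prime 11)
  have h1 : ∀ g : Suz, orderOf g = 11 → td.ty g = 9 := fun g hg =>
    List.mem_singleton.1 (ty_mem (L := [9]) (by decide +kernel) hg)
  have h2 : ∀ g : Suz, 11 ∣ orderOf g → orderOf g = 11 := fun g => by
    rw [td.ord]
    exact (by decide +kernel : ∀ i < dat.n, 11 ∣ dat.ord i → dat.ord i = 11) _ (td.lt g)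
  have h3 : IsPGroup 11 (centralizer ({x} : Set Suz)) := fun g => ⟨1, Subtype.ext (by
    by_cases h : 11 ∣ orderOf (g : Suz)
    · exact orderOf_dvd_iff_pow_eq_one.1 (h2 _ h).dvd
    · have h4 := Commute.orderOf_mul_eq_mul_orderOf_of_coprime (mem_centralizer_singleton_iff.1 g.2)
        (hx ▸ ((Nat.Prime.coprime_iff_not_dvd (by norm_num)).2 h).symm)
      rw [h2 _ (h4 ▸ hx ▸ dvd_mul_left _ _), hx] at h4
      exact orderOf_dvd_iff_pow_eq_one.1 ((show orderOf (g : Suz) = 1 by omega).dvd.trans (one_dvd _)))⟩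
  obtain ⟨n, hn⟩ := h3.exists_card_eq
  have h4 := Nat.pow_le_pow_right (by norm_num : 0 < 11) (le_of_card hn (e := 1) (by rw [card_Suz]; norm_num))
  refine One.conj mass ⟨x, h1 x hx, ?_⟩ (h1 x hx) (h1 y hy)
  rw [hn, card_Suz, show dat.cnt 9 = 40758681600 by decide +kernel]
  omega

end Cfsg.Agent.TwoF.SpE.Suz
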