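import Cfsg.Agent.TwoF.SpE.SuzCov
import Cfsg.Agent.SuzThree.NormElts

/-!
# TwoF / SP: weights of `3 ^ 6`, `2 ^ 5` and `5 ^ 2` in the covers of `Suz` (helper95)
-/

set_option autoImplicit false
set_option maxHeartbeats 400000
set_option maxRecDepth 100000
set_option Elab.async false
set_option exponentiation.threshold 1000

namespace Cfsg.Agent.TwoF.SpE.Suz

open Cfsg Subgroup Module Cfsg.Agent.TwoF.Gen Cfsg.Agent.TwoF.SpB Cfsg.Agent.H58.SuzRep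
open Cfsg.Agent.SuzThree.Elts (uw w0 Ix)
open Cfsg.Agent.SuzThree.NormElts (nw)

/-- the word of a special element -/
def xw (f : Ix) : List Spor.Suz.Gen := uw f ++ w0 ++ (uw f).reverse

/-- the generators of `3 ^ 6` -/
def F3 : ℕ → Wz
  | 0 => (3, xw .i0)
  | 1 => (0, xw .i1)
  | 2 => (0, xw .i2)
  | 3 => (0, xw .i3)
  | 4 => (0, xw .i4)
  | _ => (2, [])

/-- the action of `c` -/
def a3 : List (List ℕ) := [[0], [3], [0, 1, 1, 2, 2, 3, 3, 5], [1], [0, 0, 1, 1, 2, 2, 4, 5, 5], [5]]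

/-- the action of an element of order four -/
def b3 : List (List ℕ) := [[0, 1, 2, 2, 3, 4], [1, 1], [2], [1, 1, 2, 3, 4, 5], [0, 0, 1, 2, 3, 5, 5], [5]]

/-- the orbits -/
def O3 : List (ℕ × ℕ) := [(1, 0xe025d20828cead27f7c8809478440b4b27b8efe6b2bfbe1ecd7ff7efffe),
  (16, 0x7f1fda2df7d73152d808377f6b87bbf4b4d84710194d4041e132800810000),
  (243, 0x1210100009208461e01000840040018280acd408309e0901d54cf4b7f8 <<< 240),
  (251, 0x2feeedeb6fdff6df7b9e15eeff7bde3ffe7d7f532bf7cf61f6fe2ab30b4800 <<< 240),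
  (367, 0x101100048020000000000a0100002180000000000000000000000000000000 <<< 240),
  (486, 0x80001400014080c886b0000882010003202092b814831b210849e5d47fbc0 <<< 480),
  (490, 0x1c77ffeaff5ebf7f377947fdb77ceeeffcdfdf6d47eb7ce4def7b61a2b80400 <<< 480),
  (608, 0x308000100a0000000000802400110100000000000000000000000000000000 <<< 480)]

/-- the weights which are not trivial on a word -/
def nt (l : ℕ) (w : List ℕ) (u : ℕ) : Bool := !Nat.beq (ip l u w % l) 0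

/-- one weight out of every orbit of length two of `c` -/
def mc (u : ℕ) : Bool := Nat.blt u (tws 3 6 a3 u)

theorem k31 : comB eqz F3 3 6 = true := by decide +kernel
theorem k32 : rlB eqz F3 6 (0, [.c]) a3 = true := by decide +kernel
theorem k33 : rlB eqz F3 6 (0, nw .j5 ++ nw .j1 ++ nw .j4 ++ nw .j5) b3 = true := by decide +kernel
theorem k34 : covB 3 6 [(a3, 1), (b3, 3)] (nt 3 [0]) O3 = true := by decide +kernel
theorem k35 : allTo (fun u => !mc u || !mc (tws 3 6 a3 u)) (3 ^ 6) = true := by decide +kernel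
theorem k36 : ∀ o ∈ O3, (4 ≤ cl o.2 0 0 mc (3 ^ 6) 1 ∧ 12 ≤ cl o.2 0 0 (nt 3 [0]) (3 ^ 6) 1) ∧
    (cl o.2 0 0 (nt 3 [5]) (3 ^ 6) 1 ≤ 0 → 17 ≤ cl o.2 0 0 mc (3 ^ 6) 1 ∧ 72 ≤ cl o.2 0 0 (nt 3 [0]) (3 ^ 6) 1) := by
  decide +kernel

variable {G : Type} [Group G] [Finite G] {k : Type} [Field k] {V : Type} [AddCommGroup V] [Module k V]
  [FiniteDimensional k V] (τ : Representation k G V) (ψ : Y →* G)

omit [Finite G] [FiniteDimensional k V] in
theorem mu_one {f : ℕ → G} {l m : ℕ} {μ : ℕ → ℕ} (H : Mu τ f l m μ) {i : ℕ} (hi : i < m) :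
    cod τ (zpowers (f i)) = sm (nt l [i]) μ (l ^ m) := by
  have h := H.eq [i] fun j hj => List.mem_singleton.1 hj ▸ hi
  rwa [List.map_singleton, List.prod_singleton] at h

theorem wt3 (hk : (3 : k) ≠ 0) (h : 0 < cod τ (zpowers (ψ (val (F3 0))))) :
    (4 ≤ cod τ (zpowers (ψ (val (0, [.c])))) ∧ 12 ≤ cod τ (zpowers (ψ (val (F3 0))))) ∧
      (ψ z = 1 → 17 ≤ cod τ (zpowers (ψ (val (0, [.c])))) ∧ 72 ≤ cod τ (zpowers (ψ (val (F3 0))))) := by
  obtain ⟨μ, H⟩ := mu_of (ψ := ψ) he_z τ Nat.prime_three (by exact_mod_cast hk) k31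
  have h1 := mu_one τ H (i := 0) (by norm_num)
  have h2 := mu_one τ H (i := 5) (by norm_num)
  have h3 := H.lo _ _ (rl_of he_z k32) mc fun u hu e => by simpa [e] using (allTo_iff _ _).1 k35 u hu
  obtain ⟨o, ho, h4⟩ := exists_orb H (by norm_num) (by
    rintro _ (_ | ⟨_, _ | ⟨_, ⟨⟩⟩⟩)
    exacts [⟨_, rl_of he_z k32⟩, ⟨_, rl_of he_z k33⟩]) k34 (h1 ▸ h)
  obtain ⟨h5, h6⟩ := k36 o ho
  refine ⟨⟨h5.1.trans ((h4 _).trans h3), h5.2.trans ((h4 _).trans h1.ge)⟩, fun hz => ?_⟩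
  rw [show F3 5 = (2, []) from rfl, val_z, map_pow, hz, one_pow, zpowers_one_eq_bot, cod_bot] at h2
  have h7 := h6 ((h4 _).trans h2.ge)
  exact ⟨h7.1.trans ((h4 _).trans h3), h7.2.trans ((h4 _).trans h1.ge)⟩

/-- the generators of `2 ^ 5` -/
def F2 : ℕ → Wz
  | 0 => (0, [.e])
  | 1 => (0, [.a])
  | 2 => (0, [.c])
  | 3 => (0, [.f])
  | _ => (0, [.b, .c, .f, .b, .a, .b, .c, .f, .b])

/-- the generators of the orbits -/
def W2 : List (List (List ℕ) × ℕ) := [([[0], [4], [3], [2], [1]], 1), ([[0], [2], [1, 2], [1, 4], [1, 2, 3, 4]], 2)]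

theorem k21 : comB eqm F2 2 5 = true ∧ rlB eqm F2 5 (0, [.b, .c, .f, .b]) [[0], [4], [3], [2], [1]] = true ∧
    rlB eqm F2 5 (0, [.b, .a, .b, .a, .c, .b, .g]) [[0], [2], [1, 2], [1, 4], [1, 2, 3, 4]] = true ∧
    eqm (ml (0, [.d, .c, .d, .e, .d, .c, .d]) (pl F2 [0, 1])) (ml (F2 0) (0, [.d, .c, .d, .e, .d, .c, .d])) = true ∧
    chkO 2 5 W2 = true ∧ chkV 2 5 W2 2 1431655764 = true ∧ chkV 2 5 W2 3 2863311528 = true := by decide +kernel

theorem k22 : ((List.range 4).map fun i => [[0], [0, 1], [1]].map fun w =>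
    cl 1431655764 2863311528 (2 ^ 1) (nt 2 w) (2 ^ 5) i) = [[0, 0, 0], [0, 8, 8], [15, 7, 8], [1, 1, 0]] := by
  decide +kernel

theorem wt2 (hk : (2 : k) ≠ 0) (hz : ψ z = 1) (h : 0 < cod τ (zpowers (ψ (val (0, [.a]))))) :
    15 ≤ cod τ (zpowers (ψ (val (0, [.e])))) := by
  obtain ⟨k1, k2, k3, k4, k5, k6, k7⟩ := k21
  have he := fun a b => map_eq (a := a) (b := b) hz
  obtain ⟨μ, H⟩ := mu_of he τ Nat.prime_two (by exact_mod_cast hk) k1
  have h0 : ∀ p ∈ W2, ∃ h, Rl (fun i => ψ (val (F2 i))) 5 h p.1 := by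
    rintro _ (_ | ⟨_, _ | ⟨_, ⟨⟩⟩⟩)
    exacts [⟨_, rl_of he k2⟩, ⟨_, rl_of he k3⟩]
  have h1 := fun w => (sm_lab (c := μ 1) (v3 := 2 ^ 1) (H.orb two_pos h0 k5 k6) (H.orb two_pos h0 k5 k7)
    (fun u hu => by rw [Nat.testBit_two_pow, decide_eq_true_eq] at hu; rw [hu]) (nt 2 w) (2 ^ 5)).2
  have h2 := k22
  simp only [List.range_succ, List.range_zero, List.nil_append, List.cons_append, List.map_cons, List.map_nil,
    List.cons.injEq, and_true] at h2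
  obtain ⟨⟨a1, a2, a3⟩, ⟨b1, b2, b3⟩, ⟨c1, c2, c3⟩, d1, d2, d3⟩ := h2
  have h3 := (mu_one τ H (i := 0) (by norm_num)).trans (h1 _ a1)
  have h4 := (H.eq [0, 1] (by decide)).trans (h1 _ a2)
  have h5 := (mu_one τ H (i := 1) (by norm_num)).trans (h1 _ a3)
  have h6 := he _ _ k4
  rw [val_ml, val_ml, val_pl, map_mul, map_mul, map_list_prod, List.map_map, ← mul_inv_eq_iff_eq_mul] at h6
  have h7 := cod_zpowers_conj (ρ := τ) (ψ (val (0, [.d, .c, .d, .e, .d, .c, .d])))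
    ([0, 1].map fun i => ψ (val (F2 i))).prod
  rw [b1, c1, d1] at h3
  rw [b2, c2, d2] at h4
  rw [b3, c3, d3] at h5
  have h8 := (congrArg (fun g => cod τ (zpowers g)) h6).symm.trans h7
  change 0 < cod τ (zpowers (ψ (val (F2 1)))) at h
  change 15 ≤ cod τ (zpowers (ψ (val (F2 0))))
  omega

/-- the generators of `5 ^ 2` -/
def F5 : ℕ → Wz
  | 0 => (0, [.a, .b])
  | _ => (0, [.c, .b, .d, .c, .d, .c, .b, .a, .b, .c, .d, .e, .a, .b, .c, .b, .a, .b, .a])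

theorem k51 : comB eqz F5 5 2 = true ∧ rlB eqz F5 2 (0, [.d, .c, .b, .e, .d, .f, .b, .c, .d, .c, .b, .e, .g, .b, .c,
      .d, .c, .b, .f, .e, .a, .b, .c, .d, .c, .b, .g, .e, .b, .c, .d, .c, .b, .f]) [[0, 1, 1, 1], [0, 0, 0, 0, 1]] = true ∧
    covB 5 2 [([[0, 1, 1, 1], [0, 0, 0, 0, 1]], 11)] (nt 5 [0]) [(1, 19280478), (5, 14273952)] = true ∧
    ∀ o ∈ [(1, 19280478), (5, 14273952)], ∃ i < 2, 12 ≤ cl o.2 0 0 (nt 5 [i]) (5 ^ 2) 1 := by decide +kernel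

theorem wt5 (hk : (5 : k) ≠ 0) (h : 0 < cod τ (zpowers (ψ (val (0, [.a, .b]))))) : 12 ≤ finrank k V := by
  obtain ⟨k1, k2, k3, k4⟩ := k51
  obtain ⟨μ, H⟩ := mu_of (ψ := ψ) he_z τ Nat.prime_five (by exact_mod_cast hk) k1
  obtain ⟨o, ho, h1⟩ := exists_orb H (by norm_num) (by rintro _ (_ | ⟨_, ⟨⟩⟩); exact ⟨_, rl_of he_z k2⟩) k3
    ((mu_one τ H (i := 0) (by norm_num)).symm ▸ h :)
  obtain ⟨i, hi, h2⟩ := k4 o ho
  exact h2.trans ((h1 _).trans ((mu_one τ H hi).ge.trans (cod_le_finrank _)))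

end Cfsg.Agent.TwoF.SpE.Suz
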