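import Cfsg.Agent.H388.RI.FiW
import Cfsg.Agent.KFacts.FiTTh.BasDef
import Cfsg.Agent.Omega.Lie.HeisCover

/-!
# TwoF / SP-E: the weights of `2 ^ 11` under `M23` and `M22` (helper95)

`orb F S`: the orbit of the set `S` under the pointwise stabiliser of `F` in `M24`; `orb23`, `orb22`: lower bounds for
code words; `Sys F e`: 23 commuting involutions with the octad relations; `Sys.bound`.
-/

set_option autoImplicit false

open scoped Pointwise

namespace Cfsg.Agent.TwoF.SpE

open Cfsg
open Cfsg.Agent.H852.GolayMod (ind ind_apply hammingNorm_ind mem_octads_iff)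
open Cfsg.Agent.S5549 (fs fs_eq_dot mem_of_orth)
open Cfsg.Agent.H388.RI.FiW (sgn sgn_smul sgn_eq exists_common compl_mem)
open Cfsg.Agent.KFacts.FiTTh

section orbits

theorem exists_move {F A B : Finset GolayPt} (h5 : F.card + A.card ≤ 5) (hc : B.card = A.card) (hA : Disjoint A F)
    (hB : Disjoint B F) : ∃ m : M24, (∀ u ∈ F, m • u = u) ∧ m • A = B := by
  let eF : Fin F.card ≃ F := (Finset.equivFin F).symm
  let eA : Fin A.card ≃ A := (Finset.equivFin A).symm
  let eB : Fin A.card ≃ B := (Finset.equivFinOfCardEq hc).symm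
  have inj : ∀ (C : Finset GolayPt) (_ : Disjoint C F) (eC : Fin A.card ≃ C),
      Function.Injective (Sum.elim (fun i => (eF i : GolayPt)) (fun i => (eC i : GolayPt))) := by
    intro C hC eC
    rintro (i | i) (j | j) h
    · exact congrArg Sum.inl (eF.injective (Subtype.ext h))
    · have h1 : (eF i : GolayPt) = eC j := h
      exact absurd (h1 ▸ (eF i).2) (Finset.disjoint_left.1 hC (eC j).2)
    · have h1 : (eC i : GolayPt) = eF j := h
      exact absurd (h1.symm ▸ (eF j).2) (Finset.disjoint_left.1 hC (eC i).2)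
    · exact congrArg Sum.inr (eC.injective (Subtype.ext h))
  obtain ⟨m, hm⟩ := BasCode.exists_map_emb h5 (finSumFinEquiv.symm.toEmbedding.trans ⟨_, inj A hA eA⟩)
    (finSumFinEquiv.symm.toEmbedding.trans ⟨_, inj B hB eB⟩)
  refine ⟨m, fun u hu => ?_, ?_⟩
  · have h1 := hm (finSumFinEquiv (Sum.inl (eF.symm ⟨u, hu⟩)))
    have h2 : (m : Equiv.Perm GolayPt) u = u := by simpa using h1
    exact h2
  · apply Finset.eq_of_subset_of_card_le
    · intro p hp
      obtain ⟨q, hq, rfl⟩ := Finset.mem_smul_finset.1 hp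
      have h1 := hm (finSumFinEquiv (Sum.inr (eA.symm ⟨q, hq⟩)))
      have h2 : (m : Equiv.Perm GolayPt) q = eB (eA.symm ⟨q, hq⟩) := by simpa using h1
      have h3 : m • q = (m : Equiv.Perm GolayPt) q := rfl
      rw [h3, h2]
      exact (eB _).2
    · rw [Finset.card_smul_finset, hc]

open Classical in
/-- the orbit of `S` under the pointwise stabiliser of `F` -/
noncomputable def orb (F S : Finset GolayPt) : Finset (Finset GolayPt) :=
  Finset.univ.filter fun B => ∃ m : M24, (∀ u ∈ F, m • u = u) ∧ m • S = B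

theorem mem_orb {F S B : Finset GolayPt} : B ∈ orb F S ↔ ∃ m : M24, (∀ u ∈ F, m • u = u) ∧ m • S = B := by
  simp only [orb, Finset.mem_filter, Finset.mem_univ, true_and]

theorem self_mem_orb (F S : Finset GolayPt) : S ∈ orb F S := mem_orb.2 ⟨1, fun u _ => one_smul _ u, one_smul _ S⟩

theorem smul_mem_orb {F S B : Finset GolayPt} {m : M24} (hm : ∀ u ∈ F, m • u = u) (hB : B ∈ orb F S) :
    m • B ∈ orb F S := by
  obtain ⟨g, hg, rfl⟩ := mem_orb.1 hB
  exact mem_orb.2 ⟨m * g, fun u hu => by rw [mul_smul, hg u hu, hm u hu], mul_smul _ _ _⟩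

theorem smul_fix {F : Finset GolayPt} {m : M24} (hm : ∀ u ∈ F, m • u = u) : m • F = F := by
  apply Finset.eq_of_subset_of_card_le
  · intro p hp
    obtain ⟨q, hq, rfl⟩ := Finset.mem_smul_finset.1 hp
    rwa [hm q hq]
  · rw [Finset.card_smul_finset]

/-- double counting -/
theorem dvd_orb (F S : Finset GolayPt) {t : ℕ} (h5 : F.card + t ≤ 5) :
    (24 - F.card).choose t ∣ (orb F S).card * (S \ F).card.choose t := by
  classical
  have h24 : (Finset.univ : Finset GolayPt).card = 24 := by decide
  have hU : (Finset.univ \ F).card = 24 - F.card := by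
    rw [Finset.card_sdiff_of_subset (Finset.subset_univ F), h24]
  obtain ⟨A0, hA0, hA0c⟩ := Finset.exists_subset_card_eq (s := Finset.univ \ F) (n := t) (by omega)
  have hdis : ∀ A : Finset GolayPt, A ⊆ Finset.univ \ F → Disjoint A F := fun A hA =>
    Finset.disjoint_left.2 fun p hp => (Finset.mem_sdiff.1 (hA hp)).2
  have hle : ∀ A B : Finset GolayPt, A ⊆ Finset.univ \ F → A.card = t → B ⊆ Finset.univ \ F → B.card = t →
      ((orb F S).bipartiteAbove (fun a b => a ⊆ b) A).card ≤ ((orb F S).bipartiteAbove (fun a b => a ⊆ b) B).card := by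
    intro A B hA hAc hB hBc
    obtain ⟨m, hm, hAB⟩ := exists_move (F := F) (A := A) (B := B) (by omega) (by omega) (hdis A hA) (hdis B hB)
    refine Finset.card_le_card_of_injOn (fun C => m • C) ?_ fun C _ C' _ h => MulAction.injective m h
    intro C hC
    rw [Finset.mem_coe, Finset.mem_bipartiteAbove] at hC ⊢
    exact ⟨smul_mem_orb hm hC.1, hAB ▸ Finset.smul_finset_subset_smul_finset hC.2⟩
  have h := Finset.card_mul_eq_card_mul (fun a b : Finset GolayPt => a ⊆ b)
    (s := (Finset.univ \ F).powersetCard t) (t := orb F S)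
    (m := ((orb F S).bipartiteAbove (fun a b => a ⊆ b) A0).card) (n := (S \ F).card.choose t)
    (fun A hA => by
      obtain ⟨h1, h2⟩ := Finset.mem_powersetCard.1 hA
      exact le_antisymm (hle _ _ h1 h2 hA0 hA0c) (hle _ _ hA0 hA0c h1 h2))
    (fun B hB => by
      obtain ⟨m, hm, rfl⟩ := mem_orb.1 hB
      have h1 : ((Finset.univ \ F).powersetCard t).bipartiteBelow (fun a b => a ⊆ b) (m • S) =
          ((m • S) \ F).powersetCard t := by
        ext A
        rw [Finset.mem_bipartiteBelow, Finset.mem_powersetCard, Finset.mem_powersetCard, Finset.subset_sdiff,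
          Finset.subset_sdiff]
        constructor
        · rintro ⟨⟨⟨-, h1⟩, h2⟩, h3⟩
          exact ⟨⟨h3, h1⟩, h2⟩
        · rintro ⟨⟨h3, h1⟩, h2⟩
          exact ⟨⟨⟨Finset.subset_univ _, h1⟩, h2⟩, h3⟩
      have h2 : (m • S) \ F = m • (S \ F) := by
        rw [Finset.smul_finset_sdiff, smul_fix hm]
      rw [h1, Finset.card_powersetCard, h2, Finset.card_smul_finset])
  rw [Finset.card_powersetCard, hU] at h
  exact ⟨_, h.symm⟩

theorem card_code {S : Finset GolayPt} (hS0 : S ≠ ∅) (hnone : none ∉ S) (hSc : ind S ∈ golayCode) :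
    S.card = 8 ∨ S.card = 12 ∨ S.card = 16 := by
  have h1 := Cfsg.Agent.S0359.result _ hSc
  rw [hammingNorm_ind] at h1
  rcases h1 with h | h | h | h | h
  · exact absurd (Finset.card_eq_zero.1 h) hS0
  · exact Or.inl h
  · exact Or.inr (Or.inl h)
  · exact Or.inr (Or.inr h)
  · exfalso
    apply hnone
    have h2 : S = Finset.univ := by
      apply Finset.eq_univ_of_card
      rw [h]; decide
    rw [h2]
    exact Finset.mem_univ _

theorem orb23 {S : Finset GolayPt} (hS0 : S ≠ ∅) (hn : none ∉ S) (hS : ind S ∈ golayCode) :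
    161 ≤ (orb {none} S).card := by
  have h0 : 0 < (orb {none} S).card := Finset.card_pos.2 ⟨S, self_mem_orb _ _⟩
  have h1 : S \ {none} = S := by rw [Finset.sdiff_singleton_eq_erase, Finset.erase_eq_of_notMem hn]
  have h2 := dvd_orb {none} S (t := 2) (by simp)
  have h3 := dvd_orb {none} S (t := 3) (by simp)
  rw [h1, Finset.card_singleton] at h2 h3
  generalize (orb {none} S).card = b at *
  rcases card_code hS0 hn hS with h | h | h
  · rw [h] at h2
    have h4 : 253 ∣ b * 28 := h2
    omega
  · rw [h] at h3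
    have h4 : 1771 ∣ b * 220 := h3
    omega
  · rw [h] at h2
    have h4 : 253 ∣ b * 120 := h2
    omega

theorem orb_oct {p q : GolayPt} (hpq : p ≠ q) {F S : Finset GolayPt} (hF : ∀ u ∈ F, u = p ∨ u = q) (hS : S ∈ octads)
    (hp : p ∈ S) (hq : q ∉ S) : 176 ≤ (orb F S).card := by
  obtain ⟨h1, h2, -⟩ := Cfsg.Agent.S1605.result p q hpq
  rw [← h1, ← Set.ncard_coe_finset]
  refine Set.ncard_le_ncard (fun B hB => ?_) (Finset.finite_toSet _)
  obtain ⟨g, hg, hgp, hgq, hgS⟩ := h2 S B ⟨hS, hp, hq⟩ hB
  refine Finset.mem_coe.2 (mem_orb.2 ⟨⟨g, hg⟩, fun u hu => ?_, hgS⟩)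
  rcases hF u hu with rfl | rfl
  · exact hgp
  · exact hgq

theorem orb_compl (F S : Finset GolayPt) : (orb F Sᶜ).card ≤ (orb F S).card := by
  refine Finset.card_le_card_of_injOn (fun C => Cᶜ) ?_ fun C _ C' _ h => compl_injective h
  intro C hC
  obtain ⟨m, hm, rfl⟩ := mem_orb.1 (Finset.mem_coe.1 hC)
  refine Finset.mem_coe.2 (mem_orb.2 ⟨m, hm, ?_⟩)
  ext p
  rw [Finset.mem_compl, ← Finset.inv_smul_mem_iff, ← Finset.inv_smul_mem_iff, Finset.mem_compl, not_not]

theorem orb22 {z : GolayPt} (hz : z ≠ none) {S : Finset GolayPt} (hS0 : S ≠ ∅) (hn : none ∉ S)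
    (hS : ind S ∈ golayCode) : 77 ≤ (orb {none, z} S).card := by
  have h0 : 0 < (orb {none, z} S).card := Finset.card_pos.2 ⟨S, self_mem_orb _ _⟩
  have hF : ({none, z} : Finset GolayPt).card = 2 := Finset.card_pair hz.symm
  have h1 : S \ {none, z} = S.erase z := by
    ext p
    rw [Finset.mem_sdiff, Finset.mem_erase, Finset.mem_insert, Finset.mem_singleton]
    constructor
    · rintro ⟨h1, h2⟩
      exact ⟨fun h => h2 (Or.inr h), h1⟩
    · rintro ⟨h1, h2⟩
      exact ⟨h2, fun h => h.elim (fun h => hn (h ▸ h2)) h1⟩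
  have h2 := dvd_orb {none, z} S (t := 2) (by omega)
  have h3 := dvd_orb {none, z} S (t := 3) (by omega)
  rw [h1, hF] at h2 h3
  by_cases hzS : z ∈ S
  · rw [Finset.card_erase_of_mem hzS] at h2 h3
    rcases card_code hS0 hn hS with h | h | h
    · refine le_trans (by norm_num) (orb_oct hz (fun u hu => ?_) ((mem_octads_iff S).2 ⟨hS, h⟩) hzS hn)
      rw [Finset.mem_insert, Finset.mem_singleton] at hu
      exact hu.symm
    · rw [h] at h2 h3
      generalize (orb {none, z} S).card = b at *
      have h4 : 231 ∣ b * 55 := h2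
      have h5 : 1540 ∣ b * 165 := h3
      omega
    · refine le_trans (by norm_num) ((orb_oct (p := none) (q := z) (S := Sᶜ) hz.symm (fun u hu => ?_)
        ((mem_octads_iff _).2 ⟨compl_mem hS, ?_⟩) (Finset.mem_compl.2 hn) (fun h => Finset.mem_compl.1 h hzS)).trans
        (orb_compl _ S))
      · rwa [Finset.mem_insert, Finset.mem_singleton] at hu
      · rw [Finset.card_compl, h]
        decide
  · have h6 := dvd_orb {none, z} S (t := 1) (by omega)
    rw [h1, hF] at h6
    rw [Finset.erase_eq_of_notMem hzS] at h2 h3 h6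
    generalize (orb {none, z} S).card = b at *
    rcases card_code hS0 hn hS with h | h | h
    · rw [h] at h2 h3
      have h4 : 231 ∣ b * 28 := h2
      have h5 : 1540 ∣ b * 56 := h3
      omega
    · rw [h] at h2 h6
      have h4 : 231 ∣ b * 66 := h2
      have h5 : 22 ∣ b * 12 := h6
      omega
    · rw [h] at h2
      have h4 : 231 ∣ b * 120 := h2
      omega

theorem code_of_even {S : Finset GolayPt} (h : ∀ O ∈ octads, Even (O.filter (· ∈ S)).card) : ind S ∈ golayCode := by
  apply mem_of_orth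
  have hoct : ∀ w : GolayPt → ZMod 2, w ∈ golayCode → ∑ p, ind S p * w p = 0 := by
    intro w hw
    rw [Cfsg.Agent.SporadicA.OctadSpan.golayCode_eq_span_octads] at hw
    induction hw using Submodule.span_induction with
    | mem x hx =>
      have h4 := h _ hx
      have h5 : ∀ p, ind S p * x p = if p ∈ (support₂ x).filter (· ∈ S) then 1 else 0 := by
        intro p
        by_cases hp : p ∈ S
        · by_cases hx1 : x p = 0
          · rw [hx1, mul_zero, if_neg]
            intro h6
            have := (Finset.mem_filter.1 (Finset.mem_filter.1 h6).1).2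
            exact this hx1
          · have h7 : ∀ a : ZMod 2, a ≠ 0 → a = 1 := by decide
            rw [h7 _ hx1, ind_apply, if_pos hp, one_mul, if_pos]
            rw [Finset.mem_filter]
            exact ⟨Finset.mem_filter.2 ⟨Finset.mem_univ _, hx1⟩, hp⟩
        · rw [ind_apply, if_neg hp, zero_mul, if_neg]
          intro h6
          exact hp (Finset.mem_filter.1 h6).2
      rw [Finset.sum_congr rfl fun p _ => h5 p, Finset.sum_ite_mem, Finset.univ_inter, Finset.sum_const,
        nsmul_eq_mul, mul_one]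
      exact (ZMod.natCast_eq_zero_iff _ 2).2 h4.two_dvd
    | zero => simp
    | add x y _ _ hx hy =>
      simp only [Pi.add_apply, mul_add, Finset.sum_add_distrib]
      rw [hx, hy, add_zero]
    | smul a x _ hx =>
      simp only [Pi.smul_apply, smul_eq_mul]
      have : ∀ p, ind S p * (a * x p) = a * (ind S p * x p) := fun p => by ring
      rw [Finset.sum_congr rfl fun p _ => this p, ← Finset.mul_sum, hx, mul_zero]
  apply LinearMap.ext
  intro c
  rw [fs_eq_dot, LinearMap.zero_apply]
  exact hoct _ c.2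

end orbits

section sys

variable {L : Type*} [Group L] {F : Finset GolayPt} {e : GolayPt → L}

/-- commuting involutions with the octad relations, permuted by the stabiliser of `F` -/
structure Sys (F : Finset GolayPt) (e : GolayPt → L) : Prop where
  zero : e none = 1
  sq : ∀ p, e p ^ 2 = 1
  comm : ∀ p q, e p * e q = e q * e p
  oct : ∀ l : List GolayPt, l.Nodup → l.toFinset ∈ octads → (l.map e).prod = 1
  full : ∀ m : M24, (∀ u ∈ F, m • u = u) → ∃ n : L, ∀ p, n * e p * n⁻¹ = e (m • p)

theorem pr_list (B : BasDef.Pre e) : ∀ l : List GolayPt, l.Nodup → BasDef.pr e l.toFinset = (l.map e).prod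
  | [], _ => BasDef.pr_empty
  | a :: l, h => by
    rw [List.nodup_cons] at h
    rw [List.toFinset_cons, B.pr_insert (by simpa using h.1), pr_list B l h.2, List.map_cons, List.prod_cons]

theorem Sys.of_pre (B : BasDef.Pre e) (hF : none ∈ F) : Sys F e where
  zero := B.zero
  sq p := by rw [pow_two, B.sq]
  comm := B.comm
  oct l hl h := by rw [← pr_list B l hl, B.pr_oct h]
  full m hm := B.full m (BasDef.mem_M23.2 ⟨m.2, hm none hF⟩)

/-- restriction to the centraliser of `e z` -/
theorem Sys.res (Y : Sys F e) {z : GolayPt} (hz : z ∈ F) {H : Subgroup L} (hH : ∀ g, g * e z = e z * g → g ∈ H) :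
    Sys F fun p => (⟨e p, hH _ (Y.comm p z)⟩ : H) where
  zero := Subtype.ext Y.zero
  sq p := Subtype.ext (Y.sq p)
  comm p q := Subtype.ext (Y.comm p q)
  oct l hl h := by
    apply H.subtype_injective
    rw [map_list_prod, List.map_map, map_one]
    exact Y.oct l hl h
  full m hm := by
    obtain ⟨n, hn⟩ := Y.full m hm
    have h1 := hn z
    rw [hm z hz, mul_inv_eq_iff_eq_mul] at h1
    exact ⟨⟨n, hH n h1⟩, fun p => Subtype.ext (hn p)⟩

theorem eq_one_of_odd {M : Type*} [Group M] {π : M →* L} [Finite π.ker] (ho : Odd (Nat.card π.ker)) {a : M}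
    (h2 : a ^ 2 = 1) (h1 : π a = 1) : a = 1 := by
  have h5 : orderOf a ∣ 2 := orderOf_dvd_of_pow_eq_one h2
  have h6 : orderOf a ∣ Nat.card π.ker := by
    have := orderOf_dvd_natCard (⟨a, MonoidHom.mem_ker.2 h1⟩ : π.ker)
    rwa [Subgroup.orderOf_mk] at this
  exact orderOf_eq_one_iff.1 (Nat.eq_one_of_dvd_coprimes ho.coprime_two_left h5 h6)

theorem prod_sq {M : Type*} [Group M] {f : GolayPt → M} (h2 : ∀ p, f p ^ 2 = 1) (hc : ∀ p q, f p * f q = f q * f p) :
    ∀ l : List GolayPt, (l.map f).prod ^ 2 = 1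
  | [] => by simp
  | a :: l => by
    have h : Commute (f a) (l.map f).prod := Commute.list_prod_right _ _ fun x hx => by
      obtain ⟨q, -, rfl⟩ := List.mem_map.1 hx
      exact hc a q
    rw [List.map_cons, List.prod_cons, h.mul_pow, h2, prod_sq h2 hc l, one_mul]

/-- lifting to a central extension with a kernel of odd order -/
theorem Sys.lift (Y : Sys F e) {M : Type*} [Group M] {π : M →* L} (hπ : Function.Surjective π)
    (hc : π.ker ≤ Subgroup.center M) [Finite π.ker] (ho : Odd (Nat.card π.ker)) :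
    ∃ f : GolayPt → M, Sys F f ∧ ∀ p, π (f p) = e p := by
  have hco : Nat.Coprime 2 (Nat.card π.ker) := ho.coprime_two_left
  choose f hf hf2 using fun p => Omega.Lie.Heis.exists_lift hπ hc hco (Y.sq p)
  have hcm : ∀ p q, f p * f q = f q * f p := fun p q =>
    Omega.Lie.Heis.comm_of_comm hc hco (hf2 p) (by rw [hf, hf, Y.comm])
  refine ⟨f, ⟨eq_one_of_odd ho (hf2 _) (by rw [hf, Y.zero]), hf2, hcm, fun l hl h => ?_, fun m hm => ?_⟩, hf⟩
  · refine eq_one_of_odd ho (prod_sq hf2 hcm l) ?_
    rw [map_list_prod, List.map_map, ← Y.oct l hl h]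
    exact congrArg (fun g => (l.map g).prod) (funext hf)
  · obtain ⟨n, hn⟩ := Y.full m hm
    obtain ⟨n, rfl⟩ := hπ n
    refine ⟨n, fun p => ?_⟩
    have h1 : (n * f p * n⁻¹) ^ 2 = 1 := by rw [conj_pow, hf2, mul_one, mul_inv_cancel]
    have h2 : π (n * f p * n⁻¹) = π (f (m • p)) := by rw [map_mul, map_mul, map_inv, hf, hf, hn]
    have h3 : Commute (n * f p * n⁻¹) (f (m • p))⁻¹ :=
      (show Commute (n * f p * n⁻¹) (f (m • p)) from Omega.Lie.Heis.comm_of_comm hc hco h1 (by rw [h2])).inv_right
    refine mul_inv_eq_one.1 (eq_one_of_odd ho ?_ ?_)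
    · rw [h3.mul_pow, h1, inv_pow, hf2, inv_one, one_mul]
    · rw [map_mul, map_inv, h2, mul_inv_cancel]

variable {k W : Type*} [Field k] [AddCommGroup W] [Module k W] [FiniteDimensional k W] {ρ : L →* Module.End k W}

/-- **the weights** -/
theorem Sys.bound (Y : Sys F e) (h2 : (2 : k) ≠ 0) {p0 : GolayPt} (hne : ρ (e p0) ≠ 1) :
    ∃ S : Finset GolayPt, S ≠ ∅ ∧ none ∉ S ∧ ind S ∈ golayCode ∧ (orb F S).card ≤ Module.finrank k W := by
  classical
  obtain ⟨v, hv, hv0, hvs⟩ := exists_common (fun p => ρ (e p)) (fun p => by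
    show ρ (e p) * ρ (e p) = 1
    rw [← map_mul, ← pow_two, Y.sq, map_one]) (fun p q => by
    show ρ (e p) * ρ (e q) = ρ (e q) * ρ (e p)
    rw [← map_mul, ← map_mul, Y.comm]) hne Finset.univ
  have hvs' : ∀ p, ρ (e p) v = v ∨ ρ (e p) v = -v := fun p => hvs p (Finset.mem_univ p)
  have hvne : v ≠ -v := by
    intro h
    apply hv
    have h3 : (2 : k) • v = 0 := by
      rw [two_smul]
      nth_rw 1 [h]
      exact neg_add_cancel v
    exact (smul_eq_zero.1 h3).resolve_left h2
  let S : Finset GolayPt := Finset.univ.filter fun p => ρ (e p) v = -v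
  have hmem : ∀ p, p ∈ S ↔ ρ (e p) v = -v := fun p => by simp [S]
  have hS : ∀ p, ρ (e p) v = sgn k S p • v := by
    intro p
    unfold sgn
    by_cases h : p ∈ S
    · rw [if_pos h, neg_smul, one_smul]
      exact (hmem p).1 h
    · rw [if_neg h, one_smul]
      exact (hvs' p).resolve_right fun h1 => h ((hmem p).2 h1)
  refine ⟨S, fun h => ?_, ?_, code_of_even fun O hO => ?_, ?_⟩
  · have h1 : p0 ∈ S := (hmem p0).2 hv0
    rw [h] at h1
    exact absurd h1 (Finset.notMem_empty _)
  · rw [hmem, Y.zero, map_one]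
    exact hvne
  · have hv2 : ∀ l : List GolayPt, ρ ((l.map e).prod) v = (l.map (sgn k S)).prod • v := by
      intro l
      induction l with
      | nil => simp
      | cons a l ih =>
        rw [List.map_cons, List.prod_cons, List.map_cons, List.prod_cons, map_mul, Module.End.mul_apply, ih, map_smul,
          hS, smul_smul, mul_comm]
    have h1 := hv2 O.toList
    rw [Y.oct _ O.nodup_toList (by rwa [Finset.toList_toFinset]), map_one, Finset.prod_map_toList] at h1
    have h3 : ∏ p ∈ O, sgn k S p = (-1) ^ (O.filter (· ∈ S)).card := by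
      unfold sgn
      rw [Finset.prod_ite, Finset.prod_const, Finset.prod_const_one, mul_one]
    by_contra ho
    rw [Nat.not_even_iff_odd] at ho
    rw [h3, ho.neg_one_pow, neg_smul, one_smul] at h1
    exact hvne h1
  · have hall : ∀ B : orb F S, ∃ w : W, w ≠ 0 ∧ ∀ p, ρ (e p) w = sgn k B.1 p • w := by
      rintro ⟨B, hB⟩
      obtain ⟨m, hm, rfl⟩ := mem_orb.1 hB
      obtain ⟨n, hn⟩ := Y.full m hm
      refine ⟨ρ n v, fun h => hv ?_, fun p => ?_⟩
      · have h1 : ρ n⁻¹ (ρ n v) = v := by
          rw [← Module.End.mul_apply, ← map_mul, inv_mul_cancel, map_one]; rfl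
        rw [← h1, h, map_zero]
      · have h1 := hn (m⁻¹ • p)
        rw [smul_inv_smul] at h1
        rw [← h1, ← Module.End.mul_apply, ← map_mul, inv_mul_cancel_right, map_mul, Module.End.mul_apply, hS, map_smul]
        exact congrArg (· • ρ n v) (sgn_smul m S p).symm
    choose w hw hw' using hall
    have h1 := Cfsg.Agent.H203.LS.card_le_of_weights (k := k) (V := W) (ι := orb F S) (J := GolayPt)
      (fun p => ρ (e p)) w (fun B p => sgn k B.1 p) hw hw' fun A B hAB =>
        Subtype.ext (Finset.ext fun p => sgn_eq h2 (congrFun hAB p))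
    rwa [Nat.card_eq_fintype_card, Fintype.card_coe] at h1

end sys

end Cfsg.Agent.TwoF.SpE
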